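import Mathlib

/-!
# Classes stable under a `p`-group
-/

set_option autoImplicit false

namespace Cfsg.Agent.H692.CjFix

universe u
variable {G : Type u} [Group G]

/-- The quotient with the action by conjugation. -/
def Cj (Q : Subgroup G) : Type u := G ⧸ Q

/-- The class of an element. -/
def mk (Q : Subgroup G) (g : G) : Cj Q := (g : G ⧸ Q)

theorem mk_eq_mk {Q : Subgroup G} {g h : G} : mk Q g = mk Q h ↔ g⁻¹ * h ∈ Q :=
  QuotientGroup.eq

instance (Q : Subgroup G) [Q.Normal] : Group (Cj Q) := inferInstanceAs (Group (G ⧸ Q))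

instance (Q : Subgroup G) [Q.Normal] : MulAction G (Cj Q) where
  smul g c := mk Q g * c * (mk Q g)⁻¹
  one_smul c := by
    show mk Q 1 * c * (mk Q 1)⁻¹ = c
    have : mk Q (1 : G) = 1 := rfl
    rw [this]
    simp
  mul_smul a b c := by
    show mk Q (a * b) * c * (mk Q (a * b))⁻¹ = mk Q a * (mk Q b * c * (mk Q b)⁻¹) * (mk Q a)⁻¹
    have : mk Q (a * b) = mk Q a * mk Q b := rfl
    rw [this]
    group

theorem smul_mk (Q : Subgroup G) [Q.Normal] (g h : G) : g • mk Q h = mk Q (g * h * g⁻¹) := rfl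

instance (Q : Subgroup G) [Finite G] : Finite (Cj Q) := inferInstanceAs (Finite (G ⧸ Q))

/-- If `P` is a `p`-group, `K / Q` has order prime to `p`, and the `K`-class of `x` is stable under
`P`, then some `K`-conjugate of `x` is centralized by `P` modulo `Q`. -/
theorem exists_fixed [Finite G] {p : ℕ} [hp : Fact p.Prime] (K Q P : Subgroup G) [hK : K.Normal]
    [hQ : Q.Normal] (hidx : ¬ p ∣ Q.relIndex K) (hP : IsPGroup p P) {x : G}
    (hstab : ∀ u ∈ P, ∃ k ∈ K, u * x * u⁻¹ = k * x * k⁻¹) :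
    ∃ k ∈ K, ∀ u ∈ P, (k * x * k⁻¹) ⁻¹ * (u * (k * x * k⁻¹) * u⁻¹) ∈ Q := by
  classical
  set Ω : Set (Cj Q) := MulAction.orbit K (mk Q x) with hΩ
  have hmem : ∀ c : Cj Q, c ∈ Ω ↔ ∃ k ∈ K, mk Q (k * x * k⁻¹) = c := by
    intro c
    rw [hΩ, MulAction.mem_orbit_iff]
    constructor
    · rintro ⟨k, hk⟩
      exact ⟨k, k.2, hk⟩
    · rintro ⟨k, hk, h⟩
      exact ⟨⟨k, hk⟩, h⟩
  have hclosed : ∀ u : P, ∀ c ∈ Ω, (u : G) • c ∈ Ω := by
    intro u c hc
    obtain ⟨k, hk, rfl⟩ := (hmem c).1 hc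
    obtain ⟨k', hk', h⟩ := hstab u u.2
    rw [hmem]
    refine ⟨(u * k * (u : G)⁻¹) * k', K.mul_mem (hK.conj_mem k hk u) hk', ?_⟩
    rw [smul_mk]
    congr 1
    calc (u : G) * k * (u : G)⁻¹ * k' * x * ((u : G) * k * (u : G)⁻¹ * k')⁻¹
        = (u : G) * k * (u : G)⁻¹ * (k' * x * k'⁻¹) * ((u : G) * k * (u : G)⁻¹)⁻¹ := by group
      _ = (u : G) * k * (u : G)⁻¹ * ((u : G) * x * (u : G)⁻¹) * ((u : G) * k * (u : G)⁻¹)⁻¹ := by
          rw [h]
      _ = (u : G) * (k * x * k⁻¹) * (u : G)⁻¹ := by group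
  let _ : MulAction P Ω :=
    { smul := fun u c => ⟨(u : G) • c.1, hclosed u c.1 c.2⟩
      one_smul := fun c => Subtype.ext (one_smul G c.1)
      mul_smul := fun a b c => Subtype.ext (mul_smul (a : G) (b : G) c.1) }
  have hcard : ¬ p ∣ Nat.card Ω := by
    have h1 := MulAction.index_stabilizer K (mk Q x)
    rw [Nat.card_coe_set_eq, hΩ, ← h1]
    intro hd
    apply hidx
    refine hd.trans ?_
    have h2 : Q.subgroupOf K ≤ MulAction.stabilizer K (mk Q x) := by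
      intro k hk
      rw [Subgroup.mem_subgroupOf] at hk
      rw [MulAction.mem_stabilizer_iff]
      show mk Q ((k : G) * x * (k : G)⁻¹) = mk Q x
      rw [mk_eq_mk]
      have h3 : ((k : G) * x * (k : G)⁻¹)⁻¹ * x = (k : G) * (x⁻¹ * (k : G)⁻¹ * x⁻¹⁻¹) := by group
      rw [h3]
      exact Q.mul_mem hk (hQ.conj_mem _ (Q.inv_mem hk) x⁻¹)
    exact Subgroup.index_dvd_of_le h2
  obtain ⟨c, hc⟩ := hP.nonempty_fixed_point_of_prime_not_dvd_card Ω hcard
  obtain ⟨k, hk, h⟩ := (hmem c.1).1 c.2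
  refine ⟨k, hk, fun u hu => ?_⟩
  have h4 := congrArg Subtype.val (hc ⟨u, hu⟩)
  have h5 : u • c.1 = c.1 := h4
  rw [← h, smul_mk] at h5
  exact mk_eq_mk.1 h5.symm

/-- A subgroup of index prime to `p` contains a conjugate of every `p`-subgroup. -/
theorem exists_conj_le [Finite G] {p : ℕ} [hp : Fact p.Prime] (S P : Subgroup G)
    (hP : IsPGroup p P) (hS : ¬ p ∣ S.index) : ∃ g : G, ∀ u ∈ P, g⁻¹ * u * g ∈ S := by
  obtain ⟨c, hc⟩ := hP.nonempty_fixed_point_of_prime_not_dvd_card (G ⧸ S) (by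
    rwa [Subgroup.index] at hS)
  obtain ⟨g, rfl⟩ := QuotientGroup.mk_surjective c
  refine ⟨g, fun u hu => ?_⟩
  have h1 := hc ⟨u, hu⟩
  have h2 : ((u * g : G) : G ⧸ S) = (g : G ⧸ S) := h1
  rw [eq_comm, QuotientGroup.eq] at h2
  rwa [mul_assoc]

end Cfsg.Agent.H692.CjFix
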